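import Mathlib

set_option autoImplicit false

namespace Cfsg.Agent.H154.ASix

open Equiv.Perm

/-- the involution (0 1)(2 3) of the alternating group of degree six -/
def t0 : alternatingGroup (Fin 6) :=
  ⟨Equiv.swap 0 1 * Equiv.swap 2 3, Equiv.Perm.mem_alternatingGroup.2 (by decide +kernel)⟩

theorem t0_ne : t0 ≠ 1 := by decide +kernel

theorem t0_sq : t0 * t0 = 1 := by decide +kernel

theorem count_invol : Fintype.card {s : alternatingGroup (Fin 6) // s ≠ 1 ∧ s * s = 1} = 45 := by
  decide +kernel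

theorem count_five : Fintype.card {s : alternatingGroup (Fin 6) //
    (s ≠ 1 ∧ s * s = 1) ∧ (t0 * s) ^ 5 = 1} = 17 := by
  decide +kernel

theorem cycleType_of_invol (t : alternatingGroup (Fin 6)) (h1 : t ≠ 1) (h2 : t * t = 1) :
    (t : Equiv.Perm (Fin 6)).cycleType = {2, 2} := by
  have h1' : (t : Equiv.Perm (Fin 6)) ≠ 1 := fun h => h1 (Subtype.ext h)
  have h2' : (t : Equiv.Perm (Fin 6)) ^ 2 = 1 := by
    rw [pow_two]; exact congrArg Subtype.val h2
  have ho : orderOf (t : Equiv.Perm (Fin 6)) = 2 := orderOf_eq_prime h2' h1'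
  have hev : Equiv.Perm.sign (t : Equiv.Perm (Fin 6)) = 1 := Equiv.Perm.mem_alternatingGroup.1 t.2
  obtain ⟨n, hn⟩ := Equiv.Perm.cycleType_prime_order (σ := (t : Equiv.Perm (Fin 6)))
    (by rw [ho]; exact Nat.prime_two)
  rw [ho] at hn
  have hs : (t : Equiv.Perm (Fin 6)).cycleType.sum ≤ 6 := by
    rw [Equiv.Perm.sum_cycleType]
    exact (Finset.card_le_univ _).trans (by simp)
  rw [Equiv.Perm.sign_of_cycleType] at hev
  rw [hn] at hev hs ⊢
  rw [Multiset.sum_replicate] at hev hs
  rw [Multiset.card_replicate] at hev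
  have hn3 : n + 1 ≤ 3 := by
    have : (n + 1) * 2 ≤ 6 := by simpa using hs
    omega
  have : n = 0 ∨ n = 1 ∨ n = 2 := by omega
  rcases this with rfl | rfl | rfl
  · exfalso; revert hev; decide
  · rfl
  · exfalso; revert hev; decide

theorem isConj_t0 (t : alternatingGroup (Fin 6)) (h1 : t ≠ 1) (h2 : t * t = 1) :
    IsConj t0 t := by
  have hc0 := cycleType_of_invol t0 t0_ne t0_sq
  have hc := cycleType_of_invol t h1 h2
  refine alternatingGroup.isConj_of (Equiv.Perm.isConj_iff_cycleType_eq.2 (hc0.trans hc.symm)) ?_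
  have : (t0 : Equiv.Perm (Fin 6)).support.card = 4 := by
    rw [← Equiv.Perm.sum_cycleType, hc0]; rfl
  rw [this]; simp

end Cfsg.Agent.H154.ASix
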