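import Cfsg.Agent.H154.PGNum
import Cfsg.Agent.OrdDiv.Main

/-!
# Prime graph: the numerical test with the order engine (helper154)
-/

set_option autoImplicit false

namespace Cfsg.Agent.H154.PG

open Cfsg Cfsg.Agent.OrdDiv

universe u

/-- the hypothesis "disconnected prime graph" -/
def Disc (G : Type u) [Group G] : Prop :=
  ∃ A : Set ℕ, (∃ a ∈ A, a.Prime ∧ a ∣ Nat.card G) ∧ (∃ b ∉ A, b.Prime ∧ b ∣ Nat.card G) ∧
      ∀ a ∈ A, ∀ b ∉ A, a.Prime → b.Prime → a ∣ Nat.card G → b ∣ Nat.card G →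
        ¬ ∃ g : G, orderOf g = a * b

/-- all groups of order `n` with disconnected prime graph are simple -/
def AllSimple (n : ℕ) : Prop :=
  ∀ (G : Type u) [Group G] [Finite G], Nat.card G = n → Disc G → IsSimpleGroup G

theorem allSimple (T : OrderTable.{0})
    (hS : ∀ (S : Type) [Group S] [Finite S], IsSimpleGroup S → IsKnownSimple' S)
    {n : ℕ} {l : List (ℕ × ℕ)} (hv : valid l n = true) (h2 : 2 ∣ n) {L : List ℕ}
    (hL : ((cands l n).all fun g => memb (ordN g) L) = true)
    {tr0 : List (ℕ × ℕ)} (hs : solCheck l tr0 = true) {certs : List (ℕ × ℕ × ℕ × List (ℕ × ℕ))}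
    (hc : (L.all fun o => chkOrder l n certs o) = true) : AllSimple.{u} n := by
  intro G _ _ hn hdisc
  refine simple_of_check hn hv h2 ?_ hs hc hdisc
  intro S _ _ hSs hna hd
  obtain ⟨g, hg, -, ho⟩ := exists_good T (hS S hSs) hna hv hd
  rw [List.all_eq_true] at hL
  have := hL g hg
  rw [memb_eq] at this
  rw [ho]
  exact this

end Cfsg.Agent.H154.PG
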