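import Cfsg.Agent.H154.PGTwo
import Cfsg.Agent.OrdDiv.Core

/-!
# Prime graph: the numerical test (helper154)

`simple_of_check` : a finite group of order `n` with disconnected prime graph is simple, provided a computation
on `n` and on the list of the orders of the nonabelian simple groups of order dividing `n` succeeds.
-/

set_option autoImplicit false

namespace Cfsg.Agent.H154.PG

open Subgroup

universe u

/-! ### Boolean functions -/

def anyLt (f : ℕ → Bool) : ℕ → Bool
  | 0 => false
  | n + 1 => f n || anyLt f n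

def allLt (f : ℕ → Bool) : ℕ → Bool
  | 0 => true
  | n + 1 => f n && allLt f n

theorem anyLt_eq {f : ℕ → Bool} {n : ℕ} : anyLt f n = true ↔ ∃ a < n, f a = true := by
  induction n with
  | zero => simp [anyLt]
  | succ n ih =>
    rw [anyLt, Bool.or_eq_true, ih]
    constructor
    · rintro (h | ⟨a, ha, h⟩)
      · exact ⟨n, Nat.lt_succ_self n, h⟩
      · exact ⟨a, by omega, h⟩
    · rintro ⟨a, ha, h⟩
      rcases Nat.lt_succ_iff_lt_or_eq.1 ha with h1 | h1
      · exact Or.inr ⟨a, h1, h⟩
      · exact Or.inl (h1 ▸ h)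

theorem allLt_eq {f : ℕ → Bool} {n : ℕ} : allLt f n = true ↔ ∀ a < n, f a = true := by
  induction n with
  | zero => simp [allLt]
  | succ n ih =>
    rw [allLt, Bool.and_eq_true, ih]
    constructor
    · rintro ⟨h1, h2⟩ a ha
      rcases Nat.lt_succ_iff_lt_or_eq.1 ha with h3 | h3
      · exact h2 a h3
      · exact h3 ▸ h1
    · intro h
      exact ⟨h n (Nat.lt_succ_self n), fun a ha => h a (by omega)⟩

/-- divisibility -/
def dv (a b : ℕ) : Bool := Nat.beq (b % a) 0

theorem dv_eq {a b : ℕ} : dv a b = true ↔ a ∣ b := by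
  rw [dv, Nat.beq_eq, Nat.dvd_iff_mod_eq_zero]

/-- `v_p(o)`, with fuel -/
def val (p : ℕ) : ℕ → ℕ → ℕ
  | 0, _ => 0
  | f + 1, o => cond (dv p o) (val p f (o / p) + 1) 0

theorem val_eq {p : ℕ} (hp : p.Prime) : ∀ (f o : ℕ), o ≠ 0 → o.factorization p ≤ f →
    val p f o = o.factorization p := by
  intro f
  induction f with
  | zero => intro o _ h; rw [val]; omega
  | succ f ih =>
    intro o ho h
    rw [val]
    by_cases hd : p ∣ o
    · rw [dv_eq.2 hd, cond_true]
      obtain ⟨m, rfl⟩ := hd
      have hm : m ≠ 0 := by rintro rfl; exact ho (mul_zero _)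
      have h1 : (p * m).factorization p = m.factorization p + 1 := by
        rw [Nat.factorization_mul hp.ne_zero hm, Finsupp.add_apply, hp.factorization_self, add_comm]
      rw [Nat.mul_div_cancel_left _ hp.pos, ih m hm (by omega), h1]
    · have h0 : dv p o = false := by
        rw [← Bool.not_eq_true, dv_eq]; exact hd
      rw [h0, cond_false, Nat.factorization_eq_zero_of_not_dvd hd]

/-- the exponent of `p` in the factor list -/
def ex (p : ℕ) : List (ℕ × ℕ) → ℕ
  | [] => 0
  | x :: l => cond (Nat.beq x.1 p) x.2 (ex p l)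

theorem ex_mem {p : ℕ} : ∀ {l : List (ℕ × ℕ)}, (∃ k, (p, k) ∈ l) → (p, ex p l) ∈ l
  | [], ⟨_, h⟩ => absurd h (by simp)
  | x :: l, ⟨k, h⟩ => by
    rw [ex]
    by_cases hx : x.1 = p
    · rw [show Nat.beq x.1 p = true by rw [Nat.beq_eq]; exact hx, cond_true]
      have : (p, x.2) = x := by rw [← hx]
      rw [this]; exact List.mem_cons_self
    · have h0 : Nat.beq x.1 p = false := by rw [← Bool.not_eq_true, Nat.beq_eq]; exact hx
      rw [h0, cond_false]
      refine List.mem_cons_of_mem _ (ex_mem ⟨k, ?_⟩)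
      rcases List.mem_cons.1 h with h1 | h1
      · exact absurd (by rw [← h1]) hx
      · exact h1

open Cfsg.Agent.OrdDiv in
theorem ex_eq {l : List (ℕ × ℕ)} {n p : ℕ} (hv : valid l n = true) (hp : p.Prime) (hd : p ∣ n) :
    ex p l = n.factorization p ∧ (p, ex p l) ∈ l := by
  obtain ⟨k, hk, -⟩ := exists_pair hv hp (le_refl 1) (by rwa [pow_one])
  have hm := ex_mem ⟨k, hk⟩
  refine ⟨?_, hm⟩
  have hn : n ≠ 0 := (valid_pos hv).ne'
  have h1 := valid_exact hv _ hm
  have h2 : p ^ (ex p l) ∣ n := by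
    rw [← valid_prod hv]
    have : p ^ (ex p l) ∈ l.map fun x => x.1 ^ x.2 := List.mem_map.2 ⟨_, hm, rfl⟩
    exact List.dvd_prod this
  rw [hp.pow_dvd_iff_le_factorization hn] at h1 h2
  simp only at h1
  omega

def hall (p i q j : ℕ) : Bool :=
  anyLt (fun a => dv (q ^ j) (p ^ (a + 1) - 1)) i || anyLt (fun b => dv (p ^ i) (q ^ (b + 1) - 1)) j

def cfour (p i : ℕ) (TP : List ℕ) : Bool :=
  TP.all fun r => Nat.beq r p || anyLt (fun a => dv r (p ^ (a + 1) - 1)) i

/-- `i, t, y` : the `p`-exponents of `|N|`, `|M/N|`, `|G/M|`, and `j, u, z` those of `q` -/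
def na (p i t y q j u z : ℕ) (TP : List ℕ) : Bool :=
  dv (q ^ (u + z)) (p ^ i - 1) && (dv (q ^ z) (p ^ (i + t) - 1) && (dv (p ^ (t + y)) (q ^ j - 1) &&
    (dv (p ^ y) (q ^ (j + u) - 1) && ((Nat.beq i 0 || Nat.beq j 0 || hall p i q j) &&
      ((Nat.beq i 0 || Nat.beq u 0 || cfour p i TP) && (Nat.beq j 0 || Nat.beq t 0 || cfour q j TP))))))

/-- adjacency of `p` and `q` is forced -/
def forced (p ep t q eq u k : ℕ) (TP : List ℕ) : Bool :=
  (Nat.ble 2 k && Nat.blt 0 t && Nat.blt 0 u) ||
    allLt (fun i => allLt (fun j => !(na p i t (ep - t - i) q j u (eq - u - j) TP)) (eq - u + 1)) (ep - t + 1)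

/-- the primes of `l` dividing `o` -/
def primesOf (l : List (ℕ × ℕ)) (o : ℕ) : List ℕ := (l.map fun x => x.1).filter fun p => dv p o

def edge (l : List (ℕ × ℕ)) (o k : ℕ) (TP : List ℕ) (p q : ℕ) : Bool :=
  Nat.blt 0 (ex p l) && forced p (ex p l) (k * val p (ex p l) o) q (ex q l) (k * val q (ex q l) o) k TP

def memb (p : ℕ) : List ℕ → Bool
  | [] => false
  | x :: l => Nat.beq x p || memb p l

theorem memb_eq {p : ℕ} {l : List ℕ} : memb p l = true ↔ p ∈ l := by
  induction l with
  | nil => simp [memb]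
  | cons x l ih =>
    rw [memb, Bool.or_eq_true, ih, Nat.beq_eq, List.mem_cons]
    constructor
    · rintro (h | h)
      · exact Or.inl h.symm
      · exact Or.inr h
    · rintro (h | h)
      · exact Or.inl h.symm
      · exact Or.inr h

/-- follow a tree of forced edges; the empty list if the tree is wrong -/
def run (F : ℕ → ℕ → Bool) : List (ℕ × ℕ) → List ℕ → List ℕ
  | [], vis => vis
  | x :: tr, vis => cond (memb x.2 vis && F x.1 x.2) (run F tr (x.1 :: vis)) []

theorem run_sound {F : ℕ → ℕ → Bool} {S : ℕ → Prop} (hF : ∀ p q, F p q = true → S q → S p) :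
    ∀ (tr : List (ℕ × ℕ)) (vis : List ℕ), (∀ p ∈ vis, S p) → ∀ p ∈ run F tr vis, S p := by
  intro tr
  induction tr with
  | nil => intro vis h; rw [run]; exact h
  | cons x tr ih =>
    intro vis h
    rw [run]
    cases hc : (memb x.2 vis && F x.1 x.2) with
    | false => rw [cond_false]; intro p hp; exact absurd hp (by simp)
    | true =>
      rw [cond_true]
      rw [Bool.and_eq_true, memb_eq] at hc
      refine ih _ ?_
      intro p hp
      rcases List.mem_cons.1 hp with rfl | hp
      · exact hF _ _ hc.2 (h _ hc.1)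
      · exact h p hp

/-- solvable groups -/
def solEdge (l : List (ℕ × ℕ)) (p q : ℕ) : Bool := Nat.blt 0 (ex p l) && !(hall p (ex p l) q (ex q l))

def solCheck (l : List (ℕ × ℕ)) (tr : List (ℕ × ℕ)) : Bool :=
  let vis := run (solEdge l) tr [2]
  l.all fun x => memb x.1 vis

/-- the check for the order `o`, the power `k`, with a tree; `b = 0`: all primes are connected;
otherwise all primes but `b`, and `b` does not divide the order of `M`. -/
def chk (l : List (ℕ × ℕ)) (o k b : ℕ) (tr : List (ℕ × ℕ)) : Bool :=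
  let TP := primesOf l o
  let vis := run (edge l o k TP) tr [2]
  cond (Nat.beq b 0) (l.all fun x => memb x.1 vis)
    ((l.all fun x => Nat.beq x.1 b || memb x.1 vis) && (Nat.blt 0 (ex b l) && (!(Nat.beq b 2) && (!(dv b o) &&
      allLt (fun i => allLt (fun j => !(na 2 i (k * val 2 (ex 2 l) o) (ex 2 l - k * val 2 (ex 2 l) o - i) b (j + 1) 0
        (ex b l - (j + 1)) TP)) (ex b l)) (ex 2 l - k * val 2 (ex 2 l) o + 1)))))

/-- certificates: `(o, k, b, tree)` -/
def find (certs : List (ℕ × ℕ × ℕ × List (ℕ × ℕ))) (o k : ℕ) : ℕ × List (ℕ × ℕ) :=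
  match certs with
  | [] => (0, [])
  | c :: certs => cond (Nat.beq c.1 o && Nat.beq c.2.1 k) c.2.2 (find certs o k)

def loop (n o : ℕ) (P : ℕ → Bool) : ℕ → ℕ → Bool
  | 0, _ => false
  | f + 1, k => cond (dv (o ^ k) n) (P k && loop n o P f (k + 1)) true

theorem loop_sound {n o : ℕ} {P : ℕ → Bool} : ∀ (f k0 k : ℕ), loop n o P f k0 = true → k0 ≤ k →
    o ^ k ∣ n → P k = true := by
  intro f
  induction f with
  | zero => intro k0 k h; exact absurd h (by simp [loop])
  | succ f ih =>
    intro k0 k h hk hd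
    rw [loop] at h
    have h1 : dv (o ^ k0) n = true := dv_eq.2 ((pow_dvd_pow o hk).trans hd)
    rw [h1, cond_true, Bool.and_eq_true] at h
    rcases Nat.eq_or_lt_of_le hk with h2 | h2
    · exact h2 ▸ h.1
    · exact ih (k0 + 1) k h.2 h2 hd

def chkOrder (l : List (ℕ × ℕ)) (n : ℕ) (certs : List (ℕ × ℕ × ℕ × List (ℕ × ℕ))) (o : ℕ) : Bool :=
  loop n o (fun k => (Nat.beq (o ^ k) n && Nat.beq k 1) ||
    (let c := find certs o k; chk l o k c.1 c.2)) 100 1

/-! ### soundness -/

open Cfsg.Agent.OrdDiv in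
theorem ex_pos {l : List (ℕ × ℕ)} {n p : ℕ} (hv : valid l n = true) (h : 0 < ex p l) :
    p.Prime ∧ p ∣ n := by
  have hm : (p, ex p l) ∈ l := by
    have : ∀ l : List (ℕ × ℕ), 0 < ex p l → (p, ex p l) ∈ l := by
      intro l
      induction l with
      | nil => intro h; exact absurd h (by simp [ex])
      | cons x l ih =>
        intro h
        rw [ex] at h ⊢
        by_cases hx : x.1 = p
        · rw [show Nat.beq x.1 p = true by rw [Nat.beq_eq]; exact hx, cond_true]
          have : (p, x.2) = x := by rw [← hx]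
          rw [this]; exact List.mem_cons_self
        · have h0 : Nat.beq x.1 p = false := by rw [← Bool.not_eq_true, Nat.beq_eq]; exact hx
          rw [h0, cond_false] at h ⊢
          exact List.mem_cons_of_mem _ (ih h)
    exact this l h
  refine ⟨valid_prime hv _ hm, ?_⟩
  refine (dvd_pow_self p h.ne').trans ?_
  rw [← valid_prod hv]
  exact List.dvd_prod (List.mem_map.2 ⟨_, hm, rfl⟩)

/-- the data of a non-solvable group: `N` solvable normal, `M / N` a chief factor of order `o ^ k` -/
structure Data (G : Type u) [Group G] [Finite G] (N M : Subgroup G) (o k : ℕ) : Prop where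
  hN : N.Normal
  hM : M.Normal
  hNM : N ≤ M
  hsol : Group.IsSolvable N
  hmin : ∀ L : Subgroup G, L.Normal → N ≤ L → L ≤ M → L = N ∨ L = M
  ho : o ≠ 0
  hcard : N.relIndex M = o ^ k
  hadj : 2 ≤ k → ∀ p q : ℕ, p.Prime → q.Prime → p ≠ q → p ∣ o → q ∣ o → ¬ NonAdj G p q

theorem Data.pow_dvd {G : Type u} [Group G] [Finite G] {N M : Subgroup G} {o k : ℕ}
    (D : Data G N M o k) : Nat.card G = Nat.card N * o ^ k * M.index := by
  rw [← D.hcard, mul_assoc, Subgroup.relIndex_mul_index D.hNM, Subgroup.card_mul_index]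

theorem Data.fac {G : Type u} [Group G] [Finite G] {N M : Subgroup G} {o k : ℕ}
    (D : Data G N M o k) (p : ℕ) : (Nat.card G).factorization p =
      (Nat.card N).factorization p + k * o.factorization p + M.index.factorization p := by
  have h1 : M.index ≠ 0 := Subgroup.index_ne_zero_of_finite
  have h2 : o ^ k ≠ 0 := pow_ne_zero _ D.ho
  rw [D.pow_dvd, Nat.factorization_mul (mul_ne_zero Nat.card_pos.ne' h2) h1,
    Nat.factorization_mul Nat.card_pos.ne' h2, Nat.factorization_pow]
  rfl

theorem Data.card_M {G : Type u} [Group G] [Finite G] {N M : Subgroup G} {o k : ℕ}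
    (D : Data G N M o k) : Nat.card M = Nat.card N * o ^ k := by
  have h1 := D.pow_dvd
  rw [← Subgroup.card_mul_index M] at h1
  exact Nat.eq_of_mul_eq_mul_right (Nat.pos_of_ne_zero Subgroup.index_ne_zero_of_finite) h1

theorem Data.fac_M {G : Type u} [Group G] [Finite G] {N M : Subgroup G} {o k : ℕ}
    (D : Data G N M o k) (p : ℕ) : (Nat.card M).factorization p =
      (Nat.card N).factorization p + k * o.factorization p := by
  have h2 : o ^ k ≠ 0 := pow_ne_zero _ D.ho
  rw [D.card_M, Nat.factorization_mul Nat.card_pos.ne' h2, Nat.factorization_pow]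
  rfl

theorem Data.fac_index {G : Type u} [Group G] [Finite G] {N M : Subgroup G} {o k : ℕ}
    (D : Data G N M o k) (p : ℕ) : N.index.factorization p =
      k * o.factorization p + M.index.factorization p := by
  have h1 : M.index ≠ 0 := Subgroup.index_ne_zero_of_finite
  have h2 : o ^ k ≠ 0 := pow_ne_zero _ D.ho
  rw [← Subgroup.relIndex_mul_index D.hNM, D.hcard, Nat.factorization_mul h2 h1, Nat.factorization_pow]
  rfl

/-- **soundness of `na`** -/
theorem na_of_nonAdj {G : Type u} [Group G] [Finite G] {N M : Subgroup G} {o k : ℕ}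
    (D : Data G N M o k) {TP : List ℕ} (hTP : ∀ r ∈ TP, r.Prime ∧ r ∣ o) {p q : ℕ} (hp : p.Prime) (hq : q.Prime)
    (hpq : p ≠ q) (h : NonAdj G p q) :
    na p ((Nat.card N).factorization p) (k * o.factorization p) (M.index.factorization p)
      q ((Nat.card N).factorization q) (k * o.factorization q) (M.index.factorization q) TP = true := by
  have := D.hN
  have := D.hM
  have hN0 : Nat.card N ≠ 0 := Nat.card_pos.ne'
  have dvd_of : ∀ {p m : ℕ}, m.factorization p ≠ 0 → p ∣ m := fun {p m} h =>
    Nat.dvd_of_factorization_pos h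
  have four : ∀ {p q : ℕ}, p.Prime → q.Prime → p ≠ q → NonAdj G p q →
      (Nat.beq ((Nat.card N).factorization p) 0 || Nat.beq (k * o.factorization q) 0 ||
        cfour p ((Nat.card N).factorization p) TP) = true := by
    intro p q hp hq hpq h
    by_cases h1 : (Nat.card N).factorization p = 0
    · rw [show Nat.beq ((Nat.card N).factorization p) 0 = true by rw [Nat.beq_eq]; exact h1]
      rfl
    by_cases h2 : k * o.factorization q = 0
    · rw [show Nat.beq (k * o.factorization q) 0 = true by rw [Nat.beq_eq]; exact h2, Bool.or_true]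
      rfl
    rw [Bool.or_eq_true]
    right
    rw [cfour, List.all_eq_true]
    intro r hr
    obtain ⟨hr1, hr2⟩ := hTP r hr
    rw [Bool.or_eq_true, Nat.beq_eq]
    by_cases hrp : r = p
    · exact Or.inl hrp
    right
    have hk : k ≠ 0 := fun h => h2 (by rw [h, zero_mul])
    have hoq : q ∣ o := dvd_of (fun h => h2 (by rw [h, mul_zero]))
    obtain ⟨a, ha1, ha2, ha3⟩ := chief_dvd hp hq hr1 hpq hrp h N M D.hNM D.hmin (dvd_of h1)
      (by rw [D.hcard]; exact dvd_pow hoq hk) (by rw [D.hcard]; exact dvd_pow hr2 hk)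
    rw [anyLt_eq]
    refine ⟨a - 1, by omega, ?_⟩
    rw [dv_eq, Nat.sub_add_cancel ha1]
    exact ha3
  rw [na]
  simp only [Bool.and_eq_true]
  refine ⟨?_, ?_, ?_, ?_, ?_, ?_, ?_⟩
  · rw [dv_eq, ← D.fac_index]
    exact frattini_dvd hp hq hpq h N
  · rw [dv_eq, ← D.fac_M]
    exact frattini_dvd hp hq hpq h M
  · rw [dv_eq, ← D.fac_index]
    exact frattini_dvd hq hp (Ne.symm hpq) h.symm N
  · rw [dv_eq, ← D.fac_M]
    exact frattini_dvd hq hp (Ne.symm hpq) h.symm M
  · by_cases h1 : (Nat.card N).factorization p = 0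
    · rw [show Nat.beq ((Nat.card N).factorization p) 0 = true by rw [Nat.beq_eq]; exact h1]
      rfl
    by_cases h2 : (Nat.card N).factorization q = 0
    · rw [show Nat.beq ((Nat.card N).factorization q) 0 = true by rw [Nat.beq_eq]; exact h2, Bool.or_true]
      rfl
    rw [Bool.or_eq_true]
    right
    rw [hall, Bool.or_eq_true, anyLt_eq, anyLt_eq]
    rcases solvable_dvd hp hq hpq _ N rfl D.hsol (h.of_injective N.subtype N.subtype_injective)
      (dvd_of h1) (dvd_of h2) with ⟨a, ha1, ha2, ha3⟩ | ⟨a, ha1, ha2, ha3⟩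
    · refine Or.inl ⟨a - 1, by omega, ?_⟩
      rw [dv_eq, Nat.sub_add_cancel ha1]
      exact ha3
    · refine Or.inr ⟨a - 1, by omega, ?_⟩
      rw [dv_eq, Nat.sub_add_cancel ha1]
      exact ha3
  · exact four hp hq hpq h
  · exact four hq hp (Ne.symm hpq) h.symm

/-- **soundness of `forced`** -/
theorem forced_sound {G : Type u} [Group G] [Finite G] {N M : Subgroup G} {o k : ℕ}
    (D : Data G N M o k) {TP : List ℕ} (hTP : ∀ r ∈ TP, r.Prime ∧ r ∣ o) {p q : ℕ} (hp : p.Prime) (hq : q.Prime)
    (hpq : p ≠ q) (hf : forced p ((Nat.card G).factorization p) (k * o.factorization p)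
      q ((Nat.card G).factorization q) (k * o.factorization q) k TP = true) : ¬ NonAdj G p q := by
  intro h
  rw [forced, Bool.or_eq_true] at hf
  rcases hf with hf | hf
  · rw [Bool.and_eq_true, Bool.and_eq_true, Nat.ble_eq, Nat.blt_eq, Nat.blt_eq] at hf
    obtain ⟨⟨h1, h2⟩, h3⟩ := hf
    have hpo : p ∣ o := Nat.dvd_of_factorization_pos
      (fun h => absurd h2 (by rw [h, mul_zero]; exact lt_irrefl 0))
    have hqo : q ∣ o := Nat.dvd_of_factorization_pos
      (fun h => absurd h3 (by rw [h, mul_zero]; exact lt_irrefl 0))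
    exact D.hadj h1 p q hp hq hpq hpo hqo h
  · rw [allLt_eq] at hf
    have hfp := D.fac p
    have hfq := D.fac q
    have h1 := hf ((Nat.card N).factorization p) (by omega)
    rw [allLt_eq] at h1
    have h2 := h1 ((Nat.card N).factorization q) (by omega)
    have h3 := na_of_nonAdj D hTP hp hq hpq h
    have e1 : (Nat.card G).factorization p - k * o.factorization p - (Nat.card N).factorization p =
        M.index.factorization p := by omega
    have e2 : (Nat.card G).factorization q - k * o.factorization q - (Nat.card N).factorization q =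
        M.index.factorization q := by omega
    rw [e1, e2, h3] at h2
    exact absurd h2 (by decide)

theorem primesOf_spec {l : List (ℕ × ℕ)} {n o : ℕ} (hv : Cfsg.Agent.OrdDiv.valid l n = true) :
    ∀ r ∈ primesOf l o, r.Prime ∧ r ∣ o := by
  intro r hr
  rw [primesOf, List.mem_filter, List.mem_map, dv_eq] at hr
  obtain ⟨⟨x, hx, rfl⟩, h2⟩ := hr
  exact ⟨Cfsg.Agent.OrdDiv.valid_prime hv x hx, h2⟩

/-- the hypothesis on `A` -/
structure Sides (G : Type u) [Group G] (A : Set ℕ) : Prop where
  h1 : ∃ a ∈ A, a.Prime ∧ a ∣ Nat.card G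
  h2 : ∃ b ∉ A, b.Prime ∧ b ∣ Nat.card G
  h3 : ∀ a ∈ A, ∀ b ∉ A, a.Prime → b.Prime → a ∣ Nat.card G → b ∣ Nat.card G → ¬ ∃ g : G, orderOf g = a * b

theorem Sides.nonAdj {G : Type u} [Group G] {A : Set ℕ} (h : Sides G A) {p q : ℕ} (hp : p.Prime) (hq : q.Prime)
    (hpG : p ∣ Nat.card G) (hqG : q ∣ Nat.card G) (hne : ¬ (p ∈ A ↔ q ∈ A)) : NonAdj G p q := by
  by_cases hpA : p ∈ A
  · by_cases hqA : q ∈ A
    · exact absurd (iff_of_true hpA hqA) hne
    · exact h.h3 p hpA q hqA hp hq hpG hqG
  · by_cases hqA : q ∈ A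
    · exact NonAdj.symm (h.h3 q hqA p hpA hq hp hqG hpG)
    · exact absurd (iff_of_false hpA hqA) hne

/-- not all primes are on the same side -/
theorem Sides.not_all {G : Type u} [Group G] {A : Set ℕ} (h : Sides G A)
    (hall : ∀ p : ℕ, p.Prime → p ∣ Nat.card G → (p ∈ A ↔ 2 ∈ A)) : False := by
  obtain ⟨a, ha, hap, haG⟩ := h.h1
  obtain ⟨b, hb, hbp, hbG⟩ := h.h2
  exact hb ((hall b hbp hbG).2 ((hall a hap haG).1 ha))

/-- solvable groups with disconnected prime graph do not pass `solCheck` -/
theorem not_solvable {G : Type u} [Group G] [Finite G] {A : Set ℕ} (h : Sides G A) {l : List (ℕ × ℕ)}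
    (hv : Cfsg.Agent.OrdDiv.valid l (Nat.card G) = true) (h2 : 2 ∣ Nat.card G) {tr : List (ℕ × ℕ)}
    (hs : solCheck l tr = true) : ¬ Group.IsSolvable G := by
  intro hsol
  have hrun : ∀ p ∈ run (solEdge l) tr [2], p.Prime ∧ p ∣ Nat.card G ∧ (p ∈ A ↔ 2 ∈ A) := by
    refine run_sound ?_ tr [2] ?_
    · intro p q hF hq
      rw [solEdge, Bool.and_eq_true, Nat.blt_eq] at hF
      obtain ⟨hp, hpG⟩ := ex_pos hv hF.1
      refine ⟨hp, hpG, ?_⟩
      by_contra hne
      have hne' : ¬ (p ∈ A ↔ q ∈ A) := fun h => hne (h.trans hq.2.2)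
      have hna := h.nonAdj hp hq.1 hpG hq.2.1 hne'
      have hpq : p ≠ q := fun h => hne' (by rw [h])
      have h3 := hF.2
      rw [(ex_eq hv hp hpG).1, (ex_eq hv hq.1 hq.2.1).1] at h3
      have h4 : hall p ((Nat.card G).factorization p) q ((Nat.card G).factorization q) = true := by
        rw [hall, Bool.or_eq_true, anyLt_eq, anyLt_eq]
        rcases solvable_dvd hp hq.1 hpq _ G rfl hsol hna hpG hq.2.1 with
          ⟨a, ha1, ha2, ha3⟩ | ⟨a, ha1, ha2, ha3⟩
        · refine Or.inl ⟨a - 1, by omega, ?_⟩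
          rw [dv_eq, Nat.sub_add_cancel ha1]
          exact ha3
        · refine Or.inr ⟨a - 1, by omega, ?_⟩
          rw [dv_eq, Nat.sub_add_cancel ha1]
          exact ha3
      rw [h4] at h3
      exact absurd h3 (by decide)
    · intro p hp
      rw [List.mem_singleton.1 hp]
      exact ⟨Nat.prime_two, h2, Iff.rfl⟩
  refine h.not_all fun p hp hpG => ?_
  rw [solCheck, List.all_eq_true] at hs
  have h3 := hs _ (ex_eq hv hp hpG).2
  rw [memb_eq] at h3
  exact (hrun p h3).2.2

/-- **soundness of `chk`** -/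
theorem chk_sound {G : Type u} [Group G] [Finite G] {A : Set ℕ} (h : Sides G A) {l : List (ℕ × ℕ)}
    (hv : Cfsg.Agent.OrdDiv.valid l (Nat.card G) = true) (h2 : 2 ∣ Nat.card G) {N M : Subgroup G} {o k : ℕ}
    (D : Data G N M o k) (hk : k ≠ 0) (hns : ¬ Group.IsSolvable M) {b : ℕ} {tr : List (ℕ × ℕ)}
    (hc : chk l o k b tr = true) : False := by
  have := D.hM
  have hTP := primesOf_spec (o := o) hv
  have hoG : o ∣ Nat.card G := by
    rw [D.pow_dvd]
    exact ((dvd_pow_self o hk).mul_left _).mul_right _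
  have hval : ∀ p : ℕ, p.Prime → p ∣ Nat.card G → val p (ex p l) o = o.factorization p := by
    intro p hp hpG
    refine val_eq hp _ _ D.ho ?_
    rw [(ex_eq hv hp hpG).1]
    exact (Nat.factorization_le_iff_dvd D.ho Nat.card_pos.ne').2 hoG p
  have hrun : ∀ p ∈ run (edge l o k (primesOf l o)) tr [2], p.Prime ∧ p ∣ Nat.card G ∧ (p ∈ A ↔ 2 ∈ A) := by
    refine run_sound ?_ tr [2] ?_
    · intro p q hF hq
      rw [edge, Bool.and_eq_true, Nat.blt_eq] at hF
      obtain ⟨hp, hpG⟩ := ex_pos hv hF.1
      refine ⟨hp, hpG, ?_⟩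
      by_contra hne
      have hne' : ¬ (p ∈ A ↔ q ∈ A) := fun h => hne (h.trans hq.2.2)
      have hna := h.nonAdj hp hq.1 hpG hq.2.1 hne'
      have hpq : p ≠ q := fun h => hne' (by rw [h])
      have h3 := hF.2
      rw [hval p hp hpG, hval q hq.1 hq.2.1, (ex_eq hv hp hpG).1, (ex_eq hv hq.1 hq.2.1).1] at h3
      exact forced_sound D hTP hp hq.1 hpq h3 hna
    · intro p hp
      rw [List.mem_singleton.1 hp]
      exact ⟨Nat.prime_two, h2, Iff.rfl⟩
  rw [chk] at hc
  cases hb : Nat.beq b 0 with
  | true =>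
    rw [hb, cond_true, List.all_eq_true] at hc
    refine h.not_all fun p hp hpG => ?_
    have h3 := hc _ (ex_eq hv hp hpG).2
    rw [memb_eq] at h3
    exact (hrun p h3).2.2
  | false =>
    rw [hb, cond_false] at hc
    simp only [Bool.and_eq_true] at hc
    obtain ⟨hc1, hc2, hc3, hc4, hc5⟩ := hc
    rw [Nat.blt_eq] at hc2
    obtain ⟨hbp, hbG⟩ := ex_pos hv hc2
    have hb2 : b ≠ 2 := by
      rintro rfl
      exact absurd hc3 (by decide)
    have hbo : ¬ b ∣ o := by
      intro hd
      rw [dv_eq.2 hd] at hc4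
      exact absurd hc4 (by decide)
    -- all primes but b are on the side of 2
    have hside : ∀ p : ℕ, p.Prime → p ∣ Nat.card G → p ≠ b → (p ∈ A ↔ 2 ∈ A) := by
      intro p hp hpG hpb
      rw [List.all_eq_true] at hc1
      have h3 := hc1 _ (ex_eq hv hp hpG).2
      rw [Bool.or_eq_true, Nat.beq_eq, memb_eq] at h3
      exact (hrun p (h3.resolve_left hpb)).2.2
    have hbside : ¬ (b ∈ A ↔ 2 ∈ A) := by
      intro hb'
      refine h.not_all fun p hp hpG => ?_
      by_cases hpb : p = b
      · rw [hpb]; exact hb'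
      · exact hside p hp hpG hpb
    have hna : ∀ p : ℕ, p.Prime → p ∣ Nat.card G → p ≠ b → NonAdj G b p := by
      intro p hp hpG hpb
      exact h.nonAdj hbp hp hbG hpG (fun h' => hbside (h'.trans (hside p hp hpG hpb)))
    have hna2 : NonAdj G 2 b := (hna 2 Nat.prime_two h2 (Ne.symm hb2)).symm
    -- b does not divide |N|
    have hob : o.factorization b = 0 := Nat.factorization_eq_zero_of_not_dvd hbo
    have hbN : (Nat.card N).factorization b = 0 := by
      by_contra hne
      rw [allLt_eq] at hc5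
      have f2 := D.fac 2
      have fb := D.fac b
      rw [hob, mul_zero] at fb
      have e2 := (ex_eq hv Nat.prime_two h2).1
      have eb := (ex_eq hv hbp hbG).1
      have h4 := hc5 ((Nat.card N).factorization 2) (by rw [hval 2 Nat.prime_two h2, e2]; omega)
      rw [allLt_eq] at h4
      have h5 := h4 ((Nat.card N).factorization b - 1) (by rw [eb]; omega)
      have h6 := na_of_nonAdj D hTP Nat.prime_two hbp (Ne.symm hb2) hna2
      rw [hob, mul_zero] at h6
      have e3 : ex 2 l - k * val 2 (ex 2 l) o - (Nat.card N).factorization 2 = M.index.factorization 2 := by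
        rw [hval 2 Nat.prime_two h2, e2]; omega
      have e4 : ex b l - ((Nat.card N).factorization b - 1 + 1) = M.index.factorization b := by
        rw [eb]; omega
      have e5 : (Nat.card N).factorization b - 1 + 1 = (Nat.card N).factorization b := by omega
      rw [e3, e4, e5, hval 2 Nat.prime_two h2, h6] at h5
      exact absurd h5 (by decide)
    have hbM : ¬ b ∣ Nat.card M := by
      rw [D.card_M, hbp.dvd_mul]
      rintro (hd | hd)
      · have := hbp.factorization_pos_of_dvd Nat.card_pos.ne' hd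
        omega
      · exact hbo (hbp.dvd_of_dvd_pow hd)
    have hnil := nilpotent_of_isolated M hbp hbG hbM (fun p hp hpM => hna p hp
      (hpM.trans (Subgroup.card_subgroup_dvd_card M)) (fun hpb => hbM (hpb ▸ hpM)))
    exact hns inferInstance

/-- the solvable radical, by maximality -/
theorem exists_radical (G : Type u) [Group G] [Finite G] :
    ∃ N : Subgroup G, N.Normal ∧ Group.IsSolvable N ∧
      ∀ L : Subgroup G, L.Normal → N ≤ L → Group.IsSolvable L → L = N := by
  have hfin : {N : Subgroup G | N.Normal ∧ Group.IsSolvable N}.Finite := Set.toFinite _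
  have hne : {N : Subgroup G | N.Normal ∧ Group.IsSolvable N}.Nonempty :=
    ⟨⊥, inferInstance, inferInstance⟩
  obtain ⟨N, ⟨h1, h2⟩, hmax⟩ := hfin.exists_maximal hne
  exact ⟨N, h1, h2, fun L hL hNL hs => le_antisymm (hmax ⟨hL, hs⟩ hNL) hNL⟩

/-- **The main theorem**: a group of order `n` with disconnected prime graph is simple if the computation
succeeds. -/
theorem simple_of_check {G : Type u} [Group G] [Finite G] {n : ℕ} (hn : Nat.card G = n)
    {l : List (ℕ × ℕ)} (hv : Cfsg.Agent.OrdDiv.valid l n = true) (h2 : 2 ∣ n) {L : List ℕ}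
    (hL : ∀ (T : Type) [Group T] [Finite T], IsSimpleGroup T → (¬ ∀ a b : T, a * b = b * a) →
      Nat.card T ∣ n → Nat.card T ∈ L)
    {tr0 : List (ℕ × ℕ)} (hs : solCheck l tr0 = true) {certs : List (ℕ × ℕ × ℕ × List (ℕ × ℕ))}
    (hc : (L.all fun o => chkOrder l n certs o) = true)
    (hdisc : ∃ A : Set ℕ, (∃ a ∈ A, a.Prime ∧ a ∣ Nat.card G) ∧ (∃ b ∉ A, b.Prime ∧ b ∣ Nat.card G) ∧
      ∀ a ∈ A, ∀ b ∉ A, a.Prime → b.Prime → a ∣ Nat.card G → b ∣ Nat.card G →
        ¬ ∃ g : G, orderOf g = a * b) :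
    IsSimpleGroup G := by
  subst hn
  obtain ⟨A, hA1, hA2, hA3⟩ := hdisc
  have hA : Sides G A := ⟨hA1, hA2, hA3⟩
  have hns := not_solvable hA hv h2 hs
  obtain ⟨N, hN, hNs, hNmax⟩ := exists_radical G
  have hNtop : N ≠ ⊤ := by
    rintro rfl
    exact hns (Group.isSolvable_of_surjective (f := (Subgroup.topEquiv (G := G)).toMonoidHom)
      (Subgroup.topEquiv (G := G)).surjective)
  obtain ⟨M, hM, hNM, hmin⟩ := exists_min_above N hNtop
  have hMs : ¬ Group.IsSolvable M := fun h => hNM.ne (hNmax M hM hNM.le h).symm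
  -- the chief factor
  set Mb : Subgroup (G ⧸ N) := M.map (QuotientGroup.mk' N) with hMb
  have hMbn : Mb.Normal := hM.map _ (QuotientGroup.mk'_surjective N)
  have hker : (QuotientGroup.mk' N).ker = N := QuotientGroup.ker_mk' N
  have hcomap : ∀ L : Subgroup (G ⧸ N), N ≤ L.comap (QuotientGroup.mk' N) := fun L => by
    conv_lhs => rw [← hker]
    exact Subgroup.ker_le_comap _ _
  have hMcomap : Mb.comap (QuotientGroup.mk' N) = M := by
    rw [hMb, Subgroup.comap_map_eq, hker, sup_eq_left.2 hNM.le]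
  have hMb0 : Mb ≠ ⊥ := by
    intro h
    rw [h] at hMcomap
    exact hNM.ne (by rw [← hMcomap, MonoidHom.comap_bot, hker])
  obtain ⟨T, _, m, hT, hm, ⟨e⟩⟩ := Cfsg.Agent.S0721.result Mb hMb0 (by
    intro L hLn hL
    have h1 := hmin (L.comap (QuotientGroup.mk' N)) (hLn.comap _) (hcomap L)
      (by rw [← hMcomap]; exact Subgroup.comap_mono hL)
    have hinj : Function.Injective (Subgroup.comap (QuotientGroup.mk' N)) :=
      Subgroup.comap_injective (QuotientGroup.mk'_surjective N)
    rcases h1 with h1 | h1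
    · left
      apply hinj
      rw [h1, MonoidHom.comap_bot, hker]
    · right
      apply hinj
      rw [h1, hMcomap])
  have hTfin : Finite T := by
    have : Finite (Fin m → T) := Finite.of_equiv _ e.toEquiv
    have : Nonempty (Fin m) := ⟨⟨0, hm⟩⟩
    exact Finite.of_surjective (fun f : Fin m → T => f ⟨0, hm⟩) (fun t => ⟨fun _ => t, rfl⟩)
  have hcardMb : Nat.card Mb = Nat.card T ^ m := by
    rw [Nat.card_congr e.toEquiv, Nat.card_fun, Nat.card_fin]
  have hrel : N.relIndex M = Nat.card T ^ m := by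
    rw [← hcardMb, hMb]
    conv_lhs => rw [← hker]
    exact Subgroup.relIndex_ker _ _
  have hD : Data G N M (Nat.card T) m :=
    { hN := hN
      hM := hM
      hNM := hNM.le
      hsol := hNs
      hmin := hmin
      ho := Nat.card_pos.ne'
      hcard := hrel
      hadj := by
        intro hm2 p q hp hq hpq hpT hqT h
        refine adj_of_pi (T := T) hm2 (Mb.subtype.comp e.symm.toMonoidHom)
          (Mb.subtype_injective.comp e.symm.injective) hp hq hpq hpT hqT
          (h.of_surjective (QuotientGroup.mk' N) (QuotientGroup.mk'_surjective N)) }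
  have hTna : ¬ ∀ a b : T, a * b = b * a := by
    intro hab
    apply hMs
    -- M is an extension of N by the abelian group Mb
    have hMbs : Group.IsSolvable Mb := by
      have : Group.IsSolvable (Fin m → T) := by
        refine Group.isSolvable_of_comm fun a b => ?_
        funext i
        exact hab _ _
      exact Group.isSolvable_of_isSolvable_injective (f := e.toMonoidHom) e.injective
    let f : N →* M := Subgroup.inclusion hNM.le
    let g : M →* Mb := (QuotientGroup.mk' N).subgroupMap M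
    refine Group.isSolvable_of_ker_le_range f g ?_
    intro x hx
    have h1 : (QuotientGroup.mk' N) (x : G) = 1 := congrArg Subtype.val (MonoidHom.mem_ker.1 hx)
    have h2 : (x : G) ∈ N := by
      have : (x : G) ∈ (QuotientGroup.mk' N).ker := h1
      rwa [hker] at this
    exact ⟨⟨x, h2⟩, Subtype.ext rfl⟩
  have hTG : Nat.card T ∣ Nat.card G := by
    rw [hD.pow_dvd]
    exact ((dvd_pow_self _ (by omega)).mul_left _).mul_right _
  have hTL := hL T hT hTna hTG
  have hTmG : Nat.card T ^ m ∣ Nat.card G := by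
    rw [hD.pow_dvd]
    exact (Dvd.intro_left _ rfl).mul_right _
  rw [List.all_eq_true] at hc
  have hc1 := hc _ hTL
  have hc2 := loop_sound 100 1 m hc1 hm hTmG
  rw [Bool.or_eq_true] at hc2
  rcases hc2 with hc2 | hc2
  · rw [Bool.and_eq_true, Nat.beq_eq, Nat.beq_eq] at hc2
    obtain ⟨h3, h4⟩ := hc2
    have h5 := hD.pow_dvd
    rw [h3] at h5
    have h6 : Nat.card N = 1 ∧ M.index = 1 := by
      have h7 : 0 < Nat.card G := Nat.card_pos
      have h8 : Nat.card N * M.index = 1 := by
        have h9 : Nat.card G * 1 = Nat.card G * (Nat.card N * M.index) := by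
          conv_lhs => rw [mul_one, h5]
          ring
        exact (Nat.eq_of_mul_eq_mul_left h7 h9).symm
      exact ⟨Nat.eq_one_of_mul_eq_one_right h8, Nat.eq_one_of_mul_eq_one_left h8⟩
    have hMtop : M = ⊤ := Subgroup.index_eq_one.1 h6.2
    have hMbtop : Mb = ⊤ := by
      rw [hMb, hMtop]
      exact Subgroup.map_top_of_surjective _ (QuotientGroup.mk'_surjective N)
    have hNbot : N = ⊥ := Subgroup.card_eq_one.1 h6.1
    -- surjection T → G
    have hNt : Nontrivial G := by
      by_contra hnt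
      have : Subsingleton G := not_nontrivial_iff_subsingleton.1 hnt
      exact hns inferInstance
    have hm1 : m = 1 := h4
    subst hm1
    have e1 : (G ⧸ N) ≃* G := by
      subst hNbot
      exact QuotientGroup.quotientBot
    have e2 : Mb ≃* (G ⧸ N) := (MulEquiv.subgroupCongr hMbtop).trans Subgroup.topEquiv
    let f : T →* G := ((e.symm.trans e2).trans e1).toMonoidHom.comp
      (MonoidHom.mulSingle (fun _ : Fin 1 => T) 0)
    have hf : Function.Surjective f := by
      refine ((e.symm.trans e2).trans e1).surjective.comp ?_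
      intro x
      refine ⟨x 0, ?_⟩
      funext i
      have : i = 0 := Subsingleton.elim _ _
      subst this
      simp
    exact IsSimpleGroup.isSimpleGroup_of_surjective f hf
  · exact (chk_sound hA hv h2 hD (by omega) hMs hc2).elim

end Cfsg.Agent.H154.PG
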