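import Cfsg.Agent.H154.PG
import Cfsg.Agent.S0721

/-!
# Prime graph: solvable groups, direct powers, isolated primes (helper154)
-/

set_option autoImplicit false

namespace Cfsg.Agent.H154.PG

open Subgroup

universe u

/-- the `p`-part of the index of a normal subgroup whose order is prime to `p` -/
theorem factorization_quotient {G : Type u} [Group G] [Finite G] (V : Subgroup G) {p : ℕ}
    (h : ¬ p ∣ Nat.card V) : (Nat.card (G ⧸ V)).factorization p = (Nat.card G).factorization p := by
  have h1 := Subgroup.card_mul_index V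
  rw [Subgroup.index_eq_card] at h1
  rw [← h1, Nat.factorization_mul Nat.card_pos.ne' Nat.card_pos.ne', Finsupp.add_apply,
    Nat.factorization_eq_zero_of_not_dvd h, zero_add]

/-- a minimal normal subgroup above `N` -/
theorem exists_min_above {G : Type u} [Group G] [Finite G] (N : Subgroup G) (hN : N ≠ ⊤) :
    ∃ M : Subgroup G, M.Normal ∧ N < M ∧
      ∀ L : Subgroup G, L.Normal → N ≤ L → L ≤ M → L = N ∨ L = M := by
  have hfin : {M : Subgroup G | M.Normal ∧ N < M}.Finite := Set.toFinite _
  have hne : {M : Subgroup G | M.Normal ∧ N < M}.Nonempty :=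
    ⟨⊤, inferInstance, lt_of_le_of_ne le_top hN⟩
  obtain ⟨M, ⟨hMn, hNM⟩, hmin⟩ := hfin.exists_minimal hne
  refine ⟨M, hMn, hNM, fun L hL hNL hLM => ?_⟩
  rcases eq_or_lt_of_le hNL with h | h
  · exact Or.inl h.symm
  · exact Or.inr (le_antisymm hLM (hmin ⟨hL, h⟩ hLM))

/-- **Solvable groups**: if `p`, `q` are non-adjacent primes dividing `|G|`, `G` solvable, then the full
`q`-part divides some `p ^ a - 1`, `1 ≤ a ≤ v_p |G|`, or conversely. -/
theorem solvable_dvd {p q : ℕ} (hp : p.Prime) (hq : q.Prime) (hpq : p ≠ q) :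
    ∀ (n : ℕ) (G : Type u) [Group G] [Finite G], Nat.card G = n → Group.IsSolvable G → NonAdj G p q →
      p ∣ Nat.card G → q ∣ Nat.card G →
      (∃ a, 1 ≤ a ∧ a ≤ (Nat.card G).factorization p ∧ q ^ (Nat.card G).factorization q ∣ p ^ a - 1) ∨
      (∃ b, 1 ≤ b ∧ b ≤ (Nat.card G).factorization q ∧ p ^ (Nat.card G).factorization p ∣ q ^ b - 1) := by
  have hFp : Fact p.Prime := ⟨hp⟩
  have hFq : Fact q.Prime := ⟨hq⟩
  intro n
  induction n using Nat.strong_induction_on with
  | _ n ih =>
    intro G _ _ hn hsol hna hpG hqG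
    -- the case of a normal p-subgroup
    have key : ∀ (p q : ℕ) (hp : p.Prime) (hq : q.Prime) (hpq : p ≠ q), NonAdj G p q →
        ∀ V : Subgroup G, V.Normal → V ≠ ⊥ → IsPGroup p V →
        ∃ a, 1 ≤ a ∧ a ≤ (Nat.card G).factorization p ∧ q ^ (Nat.card G).factorization q ∣ p ^ a - 1 := by
      intro p q hp hq hpq hna V hVn hV hVp
      have hFp : Fact p.Prime := ⟨hp⟩
      have hFq : Fact q.Prime := ⟨hq⟩
      obtain ⟨Q⟩ : Nonempty (Sylow q G) := inferInstance
      obtain ⟨a, ha⟩ := (IsPGroup.iff_card).1 hVp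
      have hd := card_dvd_sub_one hp hq hpq hna hVp Q.isPGroup'
        (by rw [Subgroup.normalizer_eq_top]; exact le_top)
      rw [ha, Q.card_eq_multiplicity] at hd
      refine ⟨a, ?_, ?_, hd⟩
      · rcases Nat.eq_zero_or_pos a with h0 | h0
        · exfalso
          rw [h0, pow_zero] at ha
          exact hV (Subgroup.card_eq_one.1 ha)
        · exact h0
      · have h1 : p ^ a ∣ Nat.card G := ha ▸ Subgroup.card_subgroup_dvd_card V
        exact (hp.pow_dvd_iff_le_factorization Nat.card_pos.ne').1 h1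
    have : Nontrivial G := by
      have : 1 < Nat.card G := lt_of_lt_of_le hp.one_lt (Nat.le_of_dvd Nat.card_pos hpG)
      exact Finite.one_lt_card_iff_nontrivial.1 this
    obtain ⟨V, hVn, hV0, hmin'⟩ := exists_min_above (⊥ : Subgroup G) bot_ne_top
    have hV : V ≠ ⊥ := hV0.ne'
    have hmin : ∀ M : Subgroup G, M.Normal → M ≤ V → M = ⊥ ∨ M = V :=
      fun M hM hMV => hmin' M hM bot_le hMV
    obtain ⟨-, s, hs, hexp⟩ := Cfsg.Agent.S0043.result V hV hmin
    have hVs : IsPGroup s V := fun x => ⟨1, by
      rw [pow_one]; exact Subtype.ext (hexp x.1 x.2)⟩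
    have hFs : Fact s.Prime := ⟨hs⟩
    by_cases hsp : s = p
    · subst hsp
      exact Or.inl (key s q hp hq hpq hna V hVn hV hVs)
    by_cases hsq : s = q
    · subst hsq
      exact Or.inr (key s p hq hp (Ne.symm hpq) hna.symm V hVn hV hVs)
    · obtain ⟨a, ha⟩ := (IsPGroup.iff_card).1 hVs
      have hpV : ¬ p ∣ Nat.card V := by
        rw [ha]; intro h
        exact hsp ((Nat.prime_dvd_prime_iff_eq hp hs).1 (hp.dvd_of_dvd_pow h)).symm
      have hqV : ¬ q ∣ Nat.card V := by
        rw [ha]; intro h
        exact hsq ((Nat.prime_dvd_prime_iff_eq hq hs).1 (hq.dvd_of_dvd_pow h)).symm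
      have h1 := Subgroup.card_mul_index V
      rw [Subgroup.index_eq_card] at h1
      have hlt : Nat.card (G ⧸ V) < n := by
        rw [← hn, ← h1]
        have h2 : 1 < Nat.card V := by
          rw [Finite.one_lt_card_iff_nontrivial, Subgroup.nontrivial_iff_ne_bot]; exact hV
        have h3 : 0 < Nat.card (G ⧸ V) := Nat.card_pos
        nlinarith
      have h4 := ih _ hlt (G ⧸ V) rfl inferInstance
        (hna.of_surjective (QuotientGroup.mk' V) (QuotientGroup.mk'_surjective V))
        (by
          rw [← h1] at hpG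
          exact ((Nat.Prime.dvd_mul hp).1 hpG).resolve_left hpV)
        (by
          rw [← h1] at hqG
          exact ((Nat.Prime.dvd_mul hq).1 hqG).resolve_left hqV)
      rw [factorization_quotient V hpV, factorization_quotient V hqV] at h4
      exact h4

/-- in a direct power with at least two factors all primes of the factor are adjacent -/
theorem adj_of_pi {G : Type*} [Group G] {T : Type*} [Group T] [Finite T] {m : ℕ} (hm : 2 ≤ m)
    (f : (Fin m → T) →* G) (hf : Function.Injective f) {p q : ℕ} (hp : p.Prime) (hq : q.Prime)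
    (hpq : p ≠ q) (hpT : p ∣ Nat.card T) (hqT : q ∣ Nat.card T) : ¬ NonAdj G p q := by
  intro h
  have hFp : Fact p.Prime := ⟨hp⟩
  have hFq : Fact q.Prime := ⟨hq⟩
  obtain ⟨x, hx⟩ := exists_prime_orderOf_dvd_card' p hpT
  obtain ⟨y, hy⟩ := exists_prime_orderOf_dvd_card' q hqT
  let i : Fin m := ⟨0, by omega⟩
  let j : Fin m := ⟨1, by omega⟩
  have hij : i ≠ j := by
    intro h
    have := congrArg Fin.val h
    simp [i, j] at this
  refine h.not_commute hp hq hpq (x := f (Pi.mulSingle i x)) (y := f (Pi.mulSingle j y)) ?_ ?_ ?_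
  · rw [orderOf_injective f hf]
    rw [← hx]
    exact orderOf_injective (MonoidHom.mulSingle (fun _ : Fin m => T) i)
      (Pi.mulSingle_injective (M := fun _ : Fin m => T) i) x
  · rw [orderOf_injective f hf]
    rw [← hy]
    exact orderOf_injective (MonoidHom.mulSingle (fun _ : Fin m => T) j)
      (Pi.mulSingle_injective (M := fun _ : Fin m => T) j) y
  · exact (Pi.mulSingle_commute hij x y).map f

/-- **Thompson**: a normal subgroup `M` of order prime to `b`, `b ∣ |G|`, all of whose primes are non-adjacent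
to `b`, is nilpotent. -/
theorem nilpotent_of_isolated {G : Type*} [Group G] [Finite G] (M : Subgroup G) [M.Normal] {b : ℕ}
    (hb : b.Prime) (hbG : b ∣ Nat.card G) (hbM : ¬ b ∣ Nat.card M)
    (h : ∀ p : ℕ, p.Prime → p ∣ Nat.card M → NonAdj G b p) : Group.IsNilpotent M := by
  have hFb : Fact b.Prime := ⟨hb⟩
  obtain ⟨y, hy⟩ := exists_prime_orderOf_dvd_card' b hbG
  by_cases htriv : Nontrivial M
  · let φ : MulAut M := MulAut.conjNormal y
    have hfix : ∀ x : M, φ x = x → x = 1 := by
      intro x hx
      by_contra hx1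
      have hx' : y * (x : G) * y⁻¹ = x := by
        have := congrArg Subtype.val hx
        rwa [MulAut.conjNormal_apply] at this
      have hcomm : Commute y (x : G) := mul_inv_eq_iff_eq_mul.1 hx'
      have ho : orderOf x ≠ 1 := fun h => hx1 (orderOf_eq_one_iff.1 h)
      obtain ⟨p, hp, hpo⟩ := Nat.exists_prime_and_dvd ho
      have hpM : p ∣ Nat.card M := hpo.trans (orderOf_dvd_natCard x)
      have h1 : orderOf (x ^ (orderOf x / p)) = p := orderOf_pow_orderOf_div (orderOf_pos x).ne' hpo
      refine (h p hp hpM).not_commute hb hp (fun hbp => hbM (hbp ▸ hpM)) hy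
        (y := ((x ^ (orderOf x / p) : M) : G)) ?_ ?_
      · rw [Subgroup.orderOf_coe, h1]
      · rw [SubgroupClass.coe_pow]
        exact hcomm.pow_right _
    refine Cfsg.Agent.S0033.result (φ : M ≃* M) ?_ b hb ?_
    · intro x hx
      exact hfix x hx
    · have hpow : φ ^ b = 1 := by
        change (MulAut.conjNormal y : MulAut M) ^ b = 1
        rw [← map_pow, ← hy, pow_orderOf_eq_one, map_one]
      refine orderOf_eq_prime hpow ?_
      intro h1
      obtain ⟨x, hx⟩ := exists_ne (1 : M)
      exact hx (hfix x (by rw [h1]; rfl))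
  · have : Subsingleton M := not_nontrivial_iff_subsingleton.1 htriv
    infer_instance

end Cfsg.Agent.H154.PG
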